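import Cfsg.Agent.HNRep.Data0
import Cfsg.Agent.HNRep.Data1
import Cfsg.Agent.HNRep.Data8

/-! Machine-generated checks. -/

set_option maxRecDepth 100000
set_option Elab.async false

namespace Cfsg.Agent.HNRep

theorem p0_0 : toMat m0 * toMat m0 = toMat m8 :=
  toMat_mul m0_good m0_good m8_good (by decide +kernel)

theorem p0_1 : toMat m0 * toMat m1 = toMat m11 :=
  toMat_mul m0_good m1_good m11_good (by decide +kernel)

theorem p0_2 : toMat m0 * toMat m2 = toMat m15 :=
  toMat_mul m0_good m2_good m15_good (by decide +kernel)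

theorem p0_64 : toMat m0 * toMat m64 = toMat m67 :=
  toMat_mul m0_good m64_good m67_good (by decide +kernel)

theorem p1_0 : toMat m1 * toMat m0 = toMat m11 :=
  toMat_mul m1_good m0_good m11_good (by decide +kernel)

theorem p1_1 : toMat m1 * toMat m1 = toMat m8 :=
  toMat_mul m1_good m1_good m8_good (by decide +kernel)

theorem p1_3 : toMat m1 * toMat m3 = toMat m14 :=
  toMat_mul m1_good m3_good m14_good (by decide +kernel)

theorem p1_5 : toMat m1 * toMat m5 = toMat m66 :=
  toMat_mul m1_good m5_good m66_good (by decide +kernel)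

end Cfsg.Agent.HNRep
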