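import Cfsg.Agent.HNRep.Data0
import Cfsg.Agent.HNRep.Data1
import Cfsg.Agent.HNRep.Data2
import Cfsg.Agent.HNRep.Data4

/-! Machine-generated checks. -/

set_option maxRecDepth 100000
set_option Elab.async false

namespace Cfsg.Agent.HNRep

theorem p1_9 : toMat m1 * toMat m9 = toMat m18 :=
  toMat_mul m1_good m9_good m18_good (by decide +kernel)

theorem p2_0 : toMat m2 * toMat m0 = toMat m33 :=
  toMat_mul m2_good m0_good m33_good (by decide +kernel)

theorem p2_2 : toMat m2 * toMat m2 = toMat m9 :=
  toMat_mul m2_good m2_good m9_good (by decide +kernel)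

theorem p2_3 : toMat m2 * toMat m3 = toMat m11 :=
  toMat_mul m2_good m3_good m11_good (by decide +kernel)

theorem p2_9 : toMat m2 * toMat m9 = toMat m10 :=
  toMat_mul m2_good m9_good m10_good (by decide +kernel)

theorem p2_22 : toMat m2 * toMat m22 = toMat m32 :=
  toMat_mul m2_good m22_good m32_good (by decide +kernel)

theorem p3_1 : toMat m3 * toMat m1 = toMat m36 :=
  toMat_mul m3_good m1_good m36_good (by decide +kernel)

theorem p3_2 : toMat m3 * toMat m2 = toMat m11 :=
  toMat_mul m3_good m2_good m11_good (by decide +kernel)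

end Cfsg.Agent.HNRep
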