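import Cfsg.Agent.HNRep.Data1
import Cfsg.Agent.HNRep.Data7
import Cfsg.Agent.HNRep.Data8

/-! Machine-generated checks. -/

set_option maxRecDepth 100000
set_option Elab.async false

namespace Cfsg.Agent.HNRep

theorem p58_61 : toMat m58 * toMat m61 = toMat m62 :=
  toMat_mul m58_good m61_good m62_good (by decide +kernel)

theorem p59_60 : toMat m59 * toMat m60 = toMat m61 :=
  toMat_mul m59_good m60_good m61_good (by decide +kernel)

theorem p64_65 : toMat m64 * toMat m65 = toMat m11 :=
  toMat_mul m64_good m65_good m11_good (by decide +kernel)

theorem p66_67 : toMat m66 * toMat m67 = toMat m11 :=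
  toMat_mul m66_good m67_good m11_good (by decide +kernel)

theorem p68_69 : toMat m68 * toMat m69 = toMat m11 :=
  toMat_mul m68_good m69_good m11_good (by decide +kernel)

theorem p70_70 : toMat m70 * toMat m70 = toMat m71 :=
  toMat_mul m70_good m70_good m71_good (by decide +kernel)

theorem p70_71 : toMat m70 * toMat m71 = toMat m11 :=
  toMat_mul m70_good m71_good m11_good (by decide +kernel)

end Cfsg.Agent.HNRep
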