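import Cfsg.Agent.HNRep.Data0
import Cfsg.Agent.HNRep.Data1
import Cfsg.Agent.HNRep.Data3
import Cfsg.Agent.HNRep.Data5
import Cfsg.Agent.HNRep.Data6

/-! Machine-generated checks. -/

set_option maxRecDepth 100000
set_option Elab.async false

namespace Cfsg.Agent.HNRep

theorem p3_3 : toMat m3 * toMat m3 = toMat m48 :=
  toMat_mul m3_good m3_good m48_good (by decide +kernel)

theorem p3_4 : toMat m3 * toMat m4 = toMat m40 :=
  toMat_mul m3_good m4_good m40_good (by decide +kernel)

theorem p3_8 : toMat m3 * toMat m8 = toMat m13 :=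
  toMat_mul m3_good m8_good m13_good (by decide +kernel)

theorem p3_40 : toMat m3 * toMat m40 = toMat m41 :=
  toMat_mul m3_good m40_good m41_good (by decide +kernel)

theorem p3_48 : toMat m3 * toMat m48 = toMat m10 :=
  toMat_mul m3_good m48_good m10_good (by decide +kernel)

theorem p4_0 : toMat m4 * toMat m0 = toMat m7 :=
  toMat_mul m4_good m0_good m7_good (by decide +kernel)

theorem p4_2 : toMat m4 * toMat m2 = toMat m26 :=
  toMat_mul m4_good m2_good m26_good (by decide +kernel)

theorem p4_4 : toMat m4 * toMat m4 = toMat m11 :=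
  toMat_mul m4_good m4_good m11_good (by decide +kernel)

end Cfsg.Agent.HNRep
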