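import Cfsg.Agent.HNRep.Data0
import Cfsg.Agent.HNRep.Data1
import Cfsg.Agent.HNRep.Data4
import Cfsg.Agent.HNRep.Data8

/-! Machine-generated checks. -/

set_option maxRecDepth 100000
set_option Elab.async false

namespace Cfsg.Agent.HNRep

theorem p4_5 : toMat m4 * toMat m5 = toMat m70 :=
  toMat_mul m4_good m5_good m70_good (by decide +kernel)

theorem p4_36 : toMat m4 * toMat m36 = toMat m37 :=
  toMat_mul m4_good m36_good m37_good (by decide +kernel)

theorem p5_2 : toMat m5 * toMat m2 = toMat m69 :=
  toMat_mul m5_good m2_good m69_good (by decide +kernel)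

theorem p5_5 : toMat m5 * toMat m5 = toMat m64 :=
  toMat_mul m5_good m5_good m64_good (by decide +kernel)

theorem p5_6 : toMat m5 * toMat m6 = toMat m11 :=
  toMat_mul m5_good m6_good m11_good (by decide +kernel)

theorem p5_64 : toMat m5 * toMat m64 = toMat m65 :=
  toMat_mul m5_good m64_good m65_good (by decide +kernel)

theorem p6_3 : toMat m6 * toMat m3 = toMat m68 :=
  toMat_mul m6_good m3_good m68_good (by decide +kernel)

theorem p6_5 : toMat m6 * toMat m5 = toMat m11 :=
  toMat_mul m6_good m5_good m11_good (by decide +kernel)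

end Cfsg.Agent.HNRep
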