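import Cfsg.Agent.HNRep.Data0
import Cfsg.Agent.HNRep.Data1
import Cfsg.Agent.HNRep.Data3
import Cfsg.Agent.HNRep.Data5
import Cfsg.Agent.HNRep.Data7

/-! Machine-generated checks. -/

set_option maxRecDepth 100000
set_option Elab.async false

namespace Cfsg.Agent.HNRep

theorem p7_7 : toMat m7 * toMat m7 = toMat m11 :=
  toMat_mul m7_good m7_good m11_good (by decide +kernel)

theorem p8_2 : toMat m8 * toMat m2 = toMat m12 :=
  toMat_mul m8_good m2_good m12_good (by decide +kernel)

theorem p8_3 : toMat m8 * toMat m3 = toMat m13 :=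
  toMat_mul m8_good m3_good m13_good (by decide +kernel)

theorem p9_0 : toMat m9 * toMat m0 = toMat m59 :=
  toMat_mul m9_good m0_good m59_good (by decide +kernel)

theorem p10_10 : toMat m10 * toMat m10 = toMat m11 :=
  toMat_mul m10_good m10_good m11_good (by decide +kernel)

theorem p12_13 : toMat m12 * toMat m13 = toMat m11 :=
  toMat_mul m12_good m13_good m11_good (by decide +kernel)

theorem p14_1 : toMat m14 * toMat m1 = toMat m47 :=
  toMat_mul m14_good m1_good m47_good (by decide +kernel)

theorem p14_3 : toMat m14 * toMat m3 = toMat m27 :=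
  toMat_mul m14_good m3_good m27_good (by decide +kernel)

end Cfsg.Agent.HNRep
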