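import Cfsg.Agent.HNRep.Data0
import Cfsg.Agent.HNRep.Data1
import Cfsg.Agent.HNRep.Data2
import Cfsg.Agent.HNRep.Data3
import Cfsg.Agent.HNRep.Data5

/-! Machine-generated checks. -/

set_option maxRecDepth 100000
set_option Elab.async false

namespace Cfsg.Agent.HNRep

theorem p14_4 : toMat m14 * toMat m4 = toMat m29 :=
  toMat_mul m14_good m4_good m29_good (by decide +kernel)

theorem p14_15 : toMat m14 * toMat m15 = toMat m16 :=
  toMat_mul m14_good m15_good m16_good (by decide +kernel)

theorem p14_29 : toMat m14 * toMat m29 = toMat m30 :=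
  toMat_mul m14_good m29_good m30_good (by decide +kernel)

theorem p15_0 : toMat m15 * toMat m0 = toMat m44 :=
  toMat_mul m15_good m0_good m44_good (by decide +kernel)

theorem p15_9 : toMat m15 * toMat m9 = toMat m19 :=
  toMat_mul m15_good m9_good m19_good (by decide +kernel)

theorem p15_15 : toMat m15 * toMat m15 = toMat m22 :=
  toMat_mul m15_good m15_good m22_good (by decide +kernel)

theorem p16_16 : toMat m16 * toMat m16 = toMat m17 :=
  toMat_mul m16_good m16_good m17_good (by decide +kernel)

theorem p16_17 : toMat m16 * toMat m17 = toMat m11 :=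
  toMat_mul m16_good m17_good m11_good (by decide +kernel)

end Cfsg.Agent.HNRep
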