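import Cfsg.Agent.HNRep.Data1
import Cfsg.Agent.HNRep.Data2
import Cfsg.Agent.HNRep.Data3

/-! Machine-generated checks. -/

set_option maxRecDepth 100000
set_option Elab.async false

namespace Cfsg.Agent.HNRep

theorem p18_19 : toMat m18 * toMat m19 = toMat m20 :=
  toMat_mul m18_good m19_good m20_good (by decide +kernel)

theorem p20_20 : toMat m20 * toMat m20 = toMat m21 :=
  toMat_mul m20_good m20_good m21_good (by decide +kernel)

theorem p20_21 : toMat m20 * toMat m21 = toMat m11 :=
  toMat_mul m20_good m21_good m11_good (by decide +kernel)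

theorem p22_9 : toMat m22 * toMat m9 = toMat m24 :=
  toMat_mul m22_good m9_good m24_good (by decide +kernel)

theorem p22_22 : toMat m22 * toMat m22 = toMat m23 :=
  toMat_mul m22_good m22_good m23_good (by decide +kernel)

theorem p23_23 : toMat m23 * toMat m23 = toMat m11 :=
  toMat_mul m23_good m23_good m11_good (by decide +kernel)

theorem p24_24 : toMat m24 * toMat m24 = toMat m25 :=
  toMat_mul m24_good m24_good m25_good (by decide +kernel)

theorem p25_25 : toMat m25 * toMat m25 = toMat m11 :=
  toMat_mul m25_good m25_good m11_good (by decide +kernel)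

end Cfsg.Agent.HNRep
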