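import Cfsg.Agent.HNRep.Data0
import Cfsg.Agent.HNRep.Data1
import Cfsg.Agent.HNRep.Data3
import Cfsg.Agent.HNRep.Data4
import Cfsg.Agent.HNRep.Data5
import Cfsg.Agent.HNRep.Data6
import Cfsg.Agent.HNRep.Data7

/-! Machine-generated checks. -/

set_option maxRecDepth 100000
set_option Elab.async false

namespace Cfsg.Agent.HNRep

theorem p26_2 : toMat m26 * toMat m2 = toMat m52 :=
  toMat_mul m26_good m2_good m52_good (by decide +kernel)

theorem p26_27 : toMat m26 * toMat m27 = toMat m28 :=
  toMat_mul m26_good m27_good m28_good (by decide +kernel)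

theorem p27_57 : toMat m27 * toMat m57 = toMat m58 :=
  toMat_mul m27_good m57_good m58_good (by decide +kernel)

theorem p28_30 : toMat m28 * toMat m30 = toMat m31 :=
  toMat_mul m28_good m30_good m31_good (by decide +kernel)

theorem p31_35 : toMat m31 * toMat m35 = toMat m11 :=
  toMat_mul m31_good m35_good m11_good (by decide +kernel)

theorem p32_34 : toMat m32 * toMat m34 = toMat m35 :=
  toMat_mul m32_good m34_good m35_good (by decide +kernel)

theorem p33_2 : toMat m33 * toMat m2 = toMat m53 :=
  toMat_mul m33_good m2_good m53_good (by decide +kernel)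

theorem p33_3 : toMat m33 * toMat m3 = toMat m45 :=
  toMat_mul m33_good m3_good m45_good (by decide +kernel)

end Cfsg.Agent.HNRep
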