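import Cfsg.Agent.HNRep.Data0
import Cfsg.Agent.HNRep.Data1
import Cfsg.Agent.HNRep.Data4
import Cfsg.Agent.HNRep.Data5
import Cfsg.Agent.HNRep.Data6
import Cfsg.Agent.HNRep.Data7

/-! Machine-generated checks. -/

set_option maxRecDepth 100000
set_option Elab.async false

namespace Cfsg.Agent.HNRep

theorem p33_13 : toMat m33 * toMat m13 = toMat m34 :=
  toMat_mul m33_good m13_good m34_good (by decide +kernel)

theorem p36_3 : toMat m36 * toMat m3 = toMat m38 :=
  toMat_mul m36_good m3_good m38_good (by decide +kernel)

theorem p37_38 : toMat m37 * toMat m38 = toMat m39 :=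
  toMat_mul m37_good m38_good m39_good (by decide +kernel)

theorem p39_42 : toMat m39 * toMat m42 = toMat m43 :=
  toMat_mul m39_good m42_good m43_good (by decide +kernel)

theorem p40_2 : toMat m40 * toMat m2 = toMat m57 :=
  toMat_mul m40_good m2_good m57_good (by decide +kernel)

theorem p41_10 : toMat m41 * toMat m10 = toMat m42 :=
  toMat_mul m41_good m10_good m42_good (by decide +kernel)

theorem p43_50 : toMat m43 * toMat m50 = toMat m51 :=
  toMat_mul m43_good m50_good m51_good (by decide +kernel)

theorem p44_38 : toMat m44 * toMat m38 = toMat m55 :=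
  toMat_mul m44_good m38_good m55_good (by decide +kernel)

end Cfsg.Agent.HNRep
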