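import Cfsg.Agent.HNRep.Data0
import Cfsg.Agent.HNRep.Data1
import Cfsg.Agent.HNRep.Data5
import Cfsg.Agent.HNRep.Data6
import Cfsg.Agent.HNRep.Data7

/-! Machine-generated checks. -/

set_option maxRecDepth 100000
set_option Elab.async false

namespace Cfsg.Agent.HNRep

theorem p44_45 : toMat m44 * toMat m45 = toMat m46 :=
  toMat_mul m44_good m45_good m46_good (by decide +kernel)

theorem p46_49 : toMat m46 * toMat m49 = toMat m50 :=
  toMat_mul m46_good m49_good m50_good (by decide +kernel)

theorem p47_10 : toMat m47 * toMat m10 = toMat m49 :=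
  toMat_mul m47_good m10_good m49_good (by decide +kernel)

theorem p51_63 : toMat m51 * toMat m63 = toMat m11 :=
  toMat_mul m51_good m63_good m11_good (by decide +kernel)

theorem p52_53 : toMat m52 * toMat m53 = toMat m54 :=
  toMat_mul m52_good m53_good m54_good (by decide +kernel)

theorem p53_0 : toMat m53 * toMat m0 = toMat m60 :=
  toMat_mul m53_good m0_good m60_good (by decide +kernel)

theorem p54_55 : toMat m54 * toMat m55 = toMat m56 :=
  toMat_mul m54_good m55_good m56_good (by decide +kernel)

theorem p56_62 : toMat m56 * toMat m62 = toMat m63 :=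
  toMat_mul m56_good m62_good m63_good (by decide +kernel)

end Cfsg.Agent.HNRep
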