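import Mathlib.Data.Matrix.Mul
import Mathlib.Data.ZMod.Basic
import Mathlib.Algebra.BigOperators.Fin
import Mathlib.Data.List.GetD

/-!
# Certified products of 133 by 133 matrices over the field with 41 elements

A row is a natural number with lanes of 19 bits. A product is checked through exact equalities of packed numbers.
-/

set_option autoImplicit false
set_option maxRecDepth 100000

namespace Cfsg.Agent.HNRep

/-- The size of a lane. -/
def W : ℕ := 524288

/-- The lanes of a number. -/
def unp : ℕ → ℕ → List ℕ
  | 0, _ => []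
  | n + 1, v => v % W :: unp n (v / W)

/-- The value of a list of lanes. -/
def val : List ℕ → ℕ
  | [] => 0
  | a :: l => a + W * val l

theorem length_unp : ∀ (n v : ℕ), (unp n v).length = n
  | 0, _ => rfl
  | n + 1, v => by simp [unp, length_unp n]

theorem val_unp : ∀ (n v : ℕ), v < W ^ n → val (unp n v) = v
  | 0, v, h => by simp at h; simp [unp, val, h]
  | n + 1, v, h => by
    have hq : v / W < W ^ n := by
      rw [Nat.div_lt_iff_lt_mul (by decide)]; rw [pow_succ] at h; exact h
    rw [unp, val, val_unp n _ hq, Nat.mod_add_div]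

theorem val_inj : ∀ (l m : List ℕ), l.length = m.length → (∀ a ∈ l, a < W) → (∀ a ∈ m, a < W) →
    val l = val m → l = m
  | [], [], _, _, _, _ => rfl
  | [], _ :: _, h, _, _, _ => by simp at h
  | _ :: _, [], h, _, _, _ => by simp at h
  | a :: l, b :: m, h, hl, hm, he => by
    have ha : a < W := hl a List.mem_cons_self
    have hb : b < W := hm b List.mem_cons_self
    rw [val, val] at he
    have e1 : a = b := by
      have := congrArg (· % W) he
      simpa [Nat.add_mul_mod_self_left, Nat.mod_eq_of_lt ha, Nat.mod_eq_of_lt hb] using this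
    subst e1
    have e2 : val l = val m := Nat.eq_of_mul_eq_mul_left (by decide : 0 < W) (Nat.add_left_cancel he)
    rw [val_inj l m (by simpa using h) (fun x hx => hl x (List.mem_cons_of_mem _ hx))
      (fun x hx => hm x (List.mem_cons_of_mem _ hx)) e2]

theorem val_add : ∀ (l m : List ℕ), l.length = m.length → val (List.zipWith (· + ·) l m) = val l + val m
  | [], [], _ => rfl
  | [], _ :: _, h => by simp at h
  | _ :: _, [], h => by simp at h
  | a :: l, b :: m, h => by
    rw [List.zipWith_cons_cons, val, val, val, val_add l m (by simpa using h)]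
    ring

theorem val_smul (c : ℕ) : ∀ l : List ℕ, val (l.map (c * ·)) = c * val l
  | [] => by simp [val]
  | a :: l => by rw [List.map_cons, val, val, val_smul c l]; ring

theorem val_replicate : ∀ n, val (List.replicate n 0) = 0
  | 0 => rfl
  | n + 1 => by rw [List.replicate_succ, val, val_replicate n]; rfl

/-- The combination of rows with the lanes of `v` as coefficients, on packed rows. -/
noncomputable def dot : List ℕ → ℕ → ℕ :=
  List.rec (fun _ => 0) fun b _ ih v => Nat.add (Nat.mul (Nat.mod v 524288) b) (ih (Nat.div v 524288))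

/-- The combination of rows on lanes. -/
def comb : List ℕ → ℕ → List ℕ
  | [], _ => List.replicate 133 0
  | b :: bs, v => List.zipWith (· + ·) ((unp 133 b).map ((v % W) * ·)) (comb bs (v / W))

theorem length_comb : ∀ (B : List ℕ) (v : ℕ), (comb B v).length = 133
  | [], _ => by simp [comb]
  | b :: bs, v => by simp [comb, length_comb bs, length_unp]

theorem dot_eq : ∀ (B : List ℕ) (v : ℕ), (∀ b ∈ B, b < W ^ 133) → dot B v = val (comb B v)
  | [], _, _ => (val_replicate 133).symm
  | b :: bs, v, h => by
    rw [comb, val_add _ _ (by simp [length_comb, length_unp]), val_smul,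
      val_unp _ _ (h b List.mem_cons_self), ← dot_eq bs _ fun x hx => h x (List.mem_cons_of_mem _ hx)]
    rfl

/-- The mask with 6 bits in each lane. -/
def mask6 : ℕ := val (List.replicate 133 63)

/-- The shift 23 in each lane. -/
def shift23 : ℕ := val (List.replicate 133 23)

/-- All lanes are entries below 41. -/
def small (v : ℕ) : Bool :=
  Nat.beq (Nat.land v mask6) v && Nat.beq (Nat.land (Nat.add v shift23) mask6) (Nat.add v shift23)

theorem comb_le : ∀ (B : List ℕ) (v : ℕ), (∀ b ∈ B, ∀ a ∈ unp 133 b, a < 41) →
    (∀ a ∈ unp B.length v, a < 41) → ∀ a ∈ comb B v, a ≤ B.length * 1600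
  | [], _, _, _, a, ha => by
    rw [comb, List.mem_replicate] at ha
    simp [ha.2]
  | b :: bs, v, hB, hv, a, ha => by
    rw [comb] at ha
    obtain ⟨i, hi, rfl⟩ := List.getElem_of_mem ha
    rw [List.getElem_zipWith]
    have h1 : ((unp 133 b).map ((v % W) * ·))[i]'(by simp [List.length_zipWith] at hi; simpa using hi.1) ≤ 1600 := by
      rw [List.getElem_map]
      have hc : v % W < 41 := hv _ (by simp [unp])
      have hb := hB b List.mem_cons_self _ (List.getElem_mem (by simp [List.length_zipWith] at hi; simpa using hi.1))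
      exact le_trans (Nat.mul_le_mul (Nat.le_of_lt_succ hc) (Nat.le_of_lt_succ hb)) (le_refl _)
    have h2 := comb_le bs (v / W) (fun x hx => hB x (List.mem_cons_of_mem _ hx))
      (fun x hx => hv x (by rw [List.length_cons, unp]; exact List.mem_cons_of_mem _ hx))
      ((comb bs (v / W))[i]'(by simp [List.length_zipWith] at hi; exact hi.2)) (List.getElem_mem _)
    rw [List.length_cons]
    omega

/-- The mask with 13 bits in each lane. -/
def low : ℕ := val (List.replicate 133 8191)

theorem unp_and : ∀ (n : ℕ) (q m : ℕ) (i : ℕ) (h : i < n),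
    (unp n (q &&& m))[i]'(by rw [length_unp]; exact h) ≤ (unp n m)[i]'(by rw [length_unp]; exact h)
  | 0, _, _, _, h => absurd h (Nat.not_lt_zero _)
  | n + 1, q, m, 0, _ => by
    simp only [unp, List.getElem_cons_zero]
    rw [show W = 2 ^ 19 from rfl, Nat.and_mod_two_pow]
    exact Nat.and_le_right
  | n + 1, q, m, i + 1, h => by
    simp only [unp, List.getElem_cons_succ]
    have e : (q &&& m) / W = q / W &&& m / W := by rw [show W = 2 ^ 19 from rfl]; exact Nat.and_div_two_pow
    simp only [e]
    exact unp_and n _ _ i (Nat.lt_of_succ_lt_succ h)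

theorem low_lanes : unp 133 low = List.replicate 133 8191 := by decide +kernel

theorem low_lt : low < W ^ 133 := by decide +kernel

/-- Check one row of a product. -/
noncomputable def rowOK (B : List ℕ) (a c : ℕ) : Bool :=
  let d := dot B a
  let q := Nat.div (Nat.sub d c) 41
  Nat.beq (Nat.land q low) q && Nat.beq d (Nat.add c (Nat.mul 41 q))

/-- An entry. -/
def ent (M : List ℕ) (i j : ℕ) : ℕ := (unp 133 (M.getD i 0)).getD j 0

/-- A matrix from packed rows. -/
def toMat (M : List ℕ) : Matrix (Fin 133) (Fin 133) (ZMod 41) := fun i j => (ent M i j : ZMod 41)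

/-- A list is a table of small entries. -/
def good (M : List ℕ) : Bool := Nat.beq M.length 133 && M.all small

/-- Check rows from the `i`-th one; the row number keeps the intermediate terms of different rows apart. -/
noncomputable def mulFrom (B : List ℕ) : List ℕ → List ℕ → ℕ → Bool :=
  List.rec (fun _ _ => true) fun a _ ih C i => List.rec false (fun c C' _ =>
    rowOK B (Nat.div (Nat.add (Nat.mul a 1024) (Nat.mod i 1024)) 1024) c && ih C' (Nat.add i 1)) C

/-- Check a product. -/
noncomputable def mulOK (A B C : List ℕ) : Bool := mulFrom B A C 0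

theorem mulFrom_spec (B : List ℕ) : ∀ (A C : List ℕ) (i : ℕ), mulFrom B A C i = true →
    ∀ k < A.length, rowOK B (A.getD k 0) (C.getD k 0) = true
  | [], _, _, _, k, hk => absurd hk (Nat.not_lt_zero k)
  | a :: A, [], i, h, _, _ => by simp [mulFrom] at h
  | a :: A, c :: C, i, h, k, hk => by
    have h' : (rowOK B (Nat.div (Nat.add (Nat.mul a 1024) (Nat.mod i 1024)) 1024) c &&
        mulFrom B A C (Nat.add i 1)) = true := h
    rw [Bool.and_eq_true] at h'
    cases k with
    | zero =>
      have e : Nat.div (Nat.add (Nat.mul a 1024) (Nat.mod i 1024)) 1024 = a := by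
        show (a * 1024 + i % 1024) / 1024 = a
        omega
      have h1 := h'.1
      rw [e] at h1
      simpa using h1
    | succ k => simpa using mulFrom_spec B A C _ h'.2 k (by simpa using hk)

theorem small_spec {v : ℕ} (h : small v = true) : (∀ a ∈ unp 133 v, a < 41) ∧ v < W ^ 133 := by
  simp only [small, Bool.and_eq_true] at h
  have h1 : v &&& mask6 = v := Nat.eq_of_beq_eq_true h.1
  have h2 : (v + shift23) &&& mask6 = v + shift23 := Nat.eq_of_beq_eq_true h.2
  have hm : mask6 < W ^ 133 := by decide +kernel
  have lm : unp 133 mask6 = List.replicate 133 63 := by decide +kernel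
  have lp : unp 133 shift23 = List.replicate 133 23 := by decide +kernel
  have hv : v < W ^ 133 := by rw [← h1]; exact lt_of_le_of_lt Nat.and_le_right hm
  have hw : v + shift23 < W ^ 133 := by rw [← h2]; exact lt_of_le_of_lt Nat.and_le_right hm
  have le63 : ∀ u, u &&& mask6 = u → ∀ a ∈ unp 133 u, a ≤ 63 := by
    intro u hu a ha
    obtain ⟨i, hi, rfl⟩ := List.getElem_of_mem ha
    have hi' : i < 133 := by rwa [length_unp] at hi
    have := unp_and 133 u mask6 i hi'
    simp only [hu, lm, List.getElem_replicate] at this
    exact this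
  have e : List.zipWith (· + ·) (unp 133 v) (unp 133 shift23) = unp 133 (v + shift23) := by
    refine val_inj _ _ (by simp [length_unp]) ?_ ?_ ?_
    · intro x hx
      obtain ⟨i, hi, rfl⟩ := List.getElem_of_mem hx
      rw [List.getElem_zipWith]
      have := le63 v h1 _ (List.getElem_mem (by simp [length_unp] at hi; rw [length_unp]; exact hi) :
        (unp 133 v)[i]'(by simp [length_unp] at hi; rw [length_unp]; exact hi) ∈ unp 133 v)
      simp only [lp, List.getElem_replicate]
      have : W = 524288 := rfl
      omega
    · intro x hx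
      have := le63 _ h2 x hx
      have : W = 524288 := rfl
      omega
    · rw [val_add _ _ (by simp [length_unp]), val_unp _ _ hv, val_unp _ _ hw,
        val_unp _ _ (by decide +kernel : shift23 < W ^ 133)]
  refine ⟨fun a ha => ?_, hv⟩
  obtain ⟨i, hi, rfl⟩ := List.getElem_of_mem ha
  have hi' : i < 133 := by rwa [length_unp] at hi
  have hlen : i < (List.zipWith (· + ·) (unp 133 v) (unp 133 shift23)).length := by simp [length_unp, hi']
  have hm' : (List.zipWith (· + ·) (unp 133 v) (unp 133 shift23))[i]'hlen ∈ unp 133 (v + shift23) := by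
    have hh := List.getElem_mem hlen
    exact (congrArg (fun L => (List.zipWith (· + ·) (unp 133 v) (unp 133 shift23))[i]'hlen ∈ L) e).mp hh
  have := le63 _ h2 _ hm'
  simp only [List.getElem_zipWith, lp, List.getElem_replicate] at this
  omega

theorem getD_comb : ∀ (B : List ℕ) (v j : ℕ), j < 133 → (comb B v).getD j 0 =
    ∑ k : Fin B.length, (unp B.length v).getD k 0 * (unp 133 (B.getD k 0)).getD j 0
  | [], v, j, hj => by
    rw [comb, List.getD_eq_getElem _ _ (by rw [List.length_replicate]; exact hj), List.getElem_replicate]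
    rfl
  | b :: bs, v, j, hj => by
    have h1 : j < ((unp 133 b).map ((v % W) * ·)).length := by simp [length_unp, hj]
    have h2 : j < (comb bs (v / W)).length := by rw [length_comb]; exact hj
    have h3 : j < (comb (b :: bs) v).length := by rw [length_comb]; exact hj
    have h4 : j < (unp 133 b).length := by rw [length_unp]; exact hj
    rw [List.getD_eq_getElem _ _ h3]
    simp only [comb, List.getElem_zipWith, List.getElem_map]
    rw [← List.getD_eq_getElem _ 0 h2, getD_comb bs (v / W) j hj]
    simp only [List.length_cons]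
    rw [Fin.sum_univ_succ]
    rw [show unp (bs.length + 1) v = v % W :: unp bs.length (v / W) from rfl]
    simp only [List.getD_cons_zero, List.getD_cons_succ, Fin.val_zero, Fin.val_succ]
    rw [List.getD_eq_getElem _ _ h4]

theorem toMat_mul {A B C : List ℕ} (hA : good A = true) (hB : good B = true) (hC : good C = true)
    (h : mulOK A B C = true) : toMat A * toMat B = toMat C := by
  simp only [good, Bool.and_eq_true, List.all_eq_true] at hA hB hC
  have lA : A.length = 133 := Nat.eq_of_beq_eq_true hA.1
  have lB : B.length = 133 := Nat.eq_of_beq_eq_true hB.1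
  have lC : C.length = 133 := Nat.eq_of_beq_eq_true hC.1
  have sm : ∀ v, small v = true → (∀ a ∈ unp 133 v, a < 41) ∧ v < W ^ 133 := fun v hv => small_spec hv
  ext i j
  set a := A.getD i 0 with ha
  set c := C.getD i 0 with hc
  have hia : (i : ℕ) < A.length := by rw [lA]; exact i.2
  have hic : (i : ℕ) < C.length := by rw [lC]; exact i.2
  have has := sm a (hA.2 a (by rw [ha, List.getD_eq_getElem _ _ hia]; exact List.getElem_mem hia))
  have hcs := sm c (hC.2 c (by rw [hc, List.getD_eq_getElem _ _ hic]; exact List.getElem_mem hic))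
  have hrow : rowOK B a c = true := mulFrom_spec B A C 0 h i hia
  simp only [rowOK, Bool.and_eq_true] at hrow
  set q := Nat.div (Nat.sub (dot B a) c) 41 with hq
  have hq1 : q &&& low = q := Nat.eq_of_beq_eq_true hrow.1
  have hd : dot B a = c + 41 * q := Nat.eq_of_beq_eq_true hrow.2
  have hqlt : q < W ^ 133 := by rw [← hq1]; exact lt_of_le_of_lt Nat.and_le_right low_lt
  have hql : ∀ x ∈ unp 133 q, x ≤ 8191 := by
    intro x hx
    obtain ⟨k, hk, rfl⟩ := List.getElem_of_mem hx
    have hk' : k < 133 := by rwa [length_unp] at hk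
    have := unp_and 133 q low k hk'
    simp only [hq1, low_lanes, List.getElem_replicate] at this
    exact this
  set R := List.zipWith (· + ·) (unp 133 c) ((unp 133 q).map (41 * ·)) with hR
  have hBv : ∀ b ∈ B, b < W ^ 133 := fun b hb => (sm b (hB.2 b hb)).2
  have hval : val (comb B a) = val R := by
    rw [← dot_eq B a hBv, hR, val_add _ _ (by simp [length_unp]), val_smul, val_unp _ _ hcs.2,
      val_unp _ _ hqlt, hd]
  have hRW : ∀ x ∈ R, x < W := by
    intro x hx
    obtain ⟨k, hk, rfl⟩ := List.getElem_of_mem hx
    have hk' : k < 133 := by simpa [hR, length_unp] using hk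
    simp only [hR, List.getElem_zipWith, List.getElem_map]
    have e1 := hcs.1 _ (List.getElem_mem (l := unp 133 c) (n := k) (by rw [length_unp]; exact hk'))
    have e2 := hql _ (List.getElem_mem (l := unp 133 q) (n := k) (by rw [length_unp]; exact hk'))
    have : W = 524288 := rfl
    omega
  have heq : comb B a = R := by
    refine val_inj _ _ (by simp [hR, length_comb, length_unp]) ?_ hRW hval
    intro x hx
    have := comb_le B a (fun b hb => (sm b (hB.2 b hb)).1) (by rw [lB]; exact has.1) x hx
    have e : W = 524288 := rfl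
    rw [lB] at this
    omega
  have hj := getD_comb B a j j.2
  rw [heq] at hj
  have hjc : (j : ℕ) < (unp 133 c).length := by rw [length_unp]; exact j.2
  have hjq : (j : ℕ) < (unp 133 q).length := by rw [length_unp]; exact j.2
  have hjR : (j : ℕ) < R.length := by simp [hR, length_unp]
  rw [List.getD_eq_getElem _ _ hjR] at hj
  simp only [hR, List.getElem_zipWith, List.getElem_map] at hj
  have hj2 := congrArg (fun n : ℕ => (n : ZMod 41)) hj
  have e41 : ((41 : ℕ) : ZMod 41) = 0 := ZMod.natCast_self 41
  simp only [Nat.cast_add, Nat.cast_mul, Nat.cast_sum, e41, zero_mul, add_zero] at hj2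
  show ∑ k : Fin 133, toMat A i k * toMat B k j = (ent C i j : ZMod 41)
  rw [show (ent C i j : ZMod 41) = (((unp 133 c)[(j : ℕ)]'hjc : ℕ) : ZMod 41) by
    rw [ent, ← hc, List.getD_eq_getElem _ _ hjc], hj2, ← Fin.sum_congr' _ lB]
  refine Finset.sum_congr rfl fun k _ => ?_
  simp only [toMat, ent, Fin.val_cast, ← ha, lB]

theorem unp_zero : ∀ (n j : ℕ), (unp n 0).getD j 0 = 0
  | 0, _ => rfl
  | n + 1, 0 => by simp [unp]
  | n + 1, j + 1 => by simp only [unp, Nat.zero_div, List.getD_cons_succ]; exact unp_zero n j

theorem unp_pow : ∀ (n i j : ℕ), i < n → j < n → (unp n (W ^ i)).getD j 0 = if i = j then 1 else 0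
  | 0, _, _, h, _ => absurd h (Nat.not_lt_zero _)
  | n + 1, 0, 0, _, _ => by
    simp only [unp, pow_zero, List.getD_cons_zero, if_true]
    rfl
  | n + 1, 0, j + 1, _, _ => by
    simp only [unp, pow_zero, List.getD_cons_succ]
    rw [show (1 : ℕ) / W = 0 from rfl, unp_zero, if_neg (by omega)]
  | n + 1, i + 1, 0, _, _ => by
    simp only [unp, List.getD_cons_zero, pow_succ, Nat.mul_mod_left]
    rw [if_neg (by omega)]
  | n + 1, i + 1, j + 1, hi, hj => by
    simp only [unp, List.getD_cons_succ, pow_succ, Nat.mul_div_cancel _ (show 0 < W by decide)]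
    rw [unp_pow n i j (by omega) (by omega)]
    simp

theorem toMat_id {M : List ℕ} (h : M = (List.range 133).map fun i => W ^ i) : toMat M = 1 := by
  ext i j
  have e : M.getD i 0 = W ^ (i : ℕ) := by
    rw [h, List.getD_eq_getElem _ _ (by simp)]
    simp
  show ((ent M i j : ℕ) : ZMod 41) = (1 : Matrix (Fin 133) (Fin 133) (ZMod 41)) i j
  rw [ent, e, unp_pow 133 i j i.2 j.2, Matrix.one_apply]
  by_cases hij : i = j
  · subst hij; simp
  · rw [if_neg (fun hh => hij (Fin.ext hh)), if_neg hij]; simp

end Cfsg.Agent.HNRep
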