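import Cfsg.Agent.HNRep.Words
import Cfsg.Agent.CosetCert.Cox
import Cfsg.Prelude.Def_Spor_HN
import Mathlib.GroupTheory.FreeGroup.Reduce

/-! The 133-dimensional representation of the presented Harada-Norton group over the field with 41 elements. -/

set_option autoImplicit false
set_option maxRecDepth 100000

namespace Cfsg.Agent.HNRep

/-- Letters in the free group. -/
def freeLetter (l : ℕ) : FreeGroup Spor.HN.Gen :=
  [1, Spor.HN.x, Spor.HN.x⁻¹, Spor.HN.y, Spor.HN.y⁻¹, Spor.HN.z, Spor.HN.t, Spor.HN.t⁻¹, Spor.HN.z⁻¹].getD l 1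

theorem extra_eq : Spor.HN.extra = relWords.map fun w => (w.map freeLetter).prod := by
  decide +kernel

theorem relWords_lt : ∀ w ∈ relWords ++ invWords, ∀ l ∈ w, l < 9 := by
  decide +kernel

theorem wordMat_pair (a b : ℕ) :
    wordMat [a, b] = toMat (letterMat.getD a []) * toMat (letterMat.getD b []) := by
  simp [wordMat]

theorem pair_one {a b : ℕ} (h : [a, b] ∈ invWords) :
    toMat (letterMat.getD a []) * toMat (letterMat.getD b []) = 1 := by
  rw [← wordMat_pair]
  exact words_one _ (List.mem_append_right _ h)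

/-- A pair of inverse letters as a unit. -/
noncomputable def unitOf (a b : ℕ) (h : [a, b] ∈ invWords) (h' : [b, a] ∈ invWords) :
    (Matrix (Fin 133) (Fin 133) (ZMod 41))ˣ :=
  ⟨toMat (letterMat.getD a []), toMat (letterMat.getD b []), pair_one h, pair_one h'⟩

/-- The generators as units. -/
noncomputable def genUnit : Spor.HN.Gen → (Matrix (Fin 133) (Fin 133) (ZMod 41))ˣ
  | .x => unitOf 1 2 (by decide +kernel) (by decide +kernel)
  | .y => unitOf 3 4 (by decide +kernel) (by decide +kernel)
  | .z => unitOf 5 5 (by decide +kernel) (by decide +kernel)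
  | .t => unitOf 6 7 (by decide +kernel) (by decide +kernel)

theorem lift_letter (l : ℕ) (h : l < 9) :
    ((FreeGroup.lift genUnit (freeLetter l) : (Matrix (Fin 133) (Fin 133) (ZMod 41))ˣ) :
      Matrix (Fin 133) (Fin 133) (ZMod 41)) = toMat (letterMat.getD l []) := by
  interval_cases l
  · simp only [freeLetter, List.getD_cons_zero, map_one, Units.val_one]
    exact one_eq.symm
  all_goals simp only [freeLetter, List.getD_cons_succ, List.getD_cons_zero, map_inv, FreeGroup.lift_apply_of]
  all_goals rfl

theorem lift_word (w : List ℕ) (h : ∀ l ∈ w, l < 9) :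
    ((FreeGroup.lift genUnit (w.map freeLetter).prod : (Matrix (Fin 133) (Fin 133) (ZMod 41))ˣ) :
      Matrix (Fin 133) (Fin 133) (ZMod 41)) = wordMat w := by
  induction w with
  | nil => simp [wordMat]
  | cons a v ih =>
    rw [List.map_cons, List.prod_cons, map_mul, Units.val_mul, ih fun l hl => h l (List.mem_cons_of_mem _ hl),
      lift_letter a (h a List.mem_cons_self)]
    simp [wordMat]

theorem lift_rel : ∀ r ∈ Spor.coxRelators Spor.HN.edges ∪ {r | r ∈ Spor.HN.extra},
    FreeGroup.lift genUnit r = 1 := by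
  intro r hr
  rw [CosetCert.mem_coxList] at hr
  have e : CosetCert.coxList Spor.HN.edges Spor.HN.extra = Spor.HN.extra := rfl
  rw [e, extra_eq] at hr
  obtain ⟨w, hw, rfl⟩ := List.mem_map.1 hr
  apply Units.ext
  rw [lift_word w (relWords_lt w (List.mem_append_left _ hw)), words_one w (List.mem_append_left _ hw)]
  rfl

/-- The representation. -/
noncomputable def rep : Spor.HN →* (Matrix (Fin 133) (Fin 133) (ZMod 41))ˣ :=
  PresentedGroup.toGroup lift_rel

/-- The first generator does not square to one. -/
theorem x_sq_ne_one :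
    (PresentedGroup.of Spor.HN.Gen.x * PresentedGroup.of Spor.HN.Gen.x : Spor.HN) ≠ 1 := by
  intro h
  have h1 := congrArg (fun g => ((rep g : (Matrix (Fin 133) (Fin 133) (ZMod 41))ˣ) :
    Matrix (Fin 133) (Fin 133) (ZMod 41))) h
  simp only [rep, map_mul, PresentedGroup.toGroup.of, map_one, Units.val_mul, Units.val_one] at h1
  apply x_sq_ne
  rw [← x_sq, wordMat_pair]
  exact h1

end Cfsg.Agent.HNRep
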